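import Cfsg.Agent.Cit.HexInv
import Cfsg.Agent.Cit.HexD4
import Cfsg.Agent.ClassicalGeometry.PSL2Basic

/-!
# The centralizer of an involution of `³D₄(q)`, `q` odd (helper874, for helper922, S2465)

* `card_cent_inv` : `|C(t)| ≤ |SL₂(q³)| |SL₂(q)| (q - 1)`; `card_cent_inv_three` : `q = 3`.
-/

set_option autoImplicit false

namespace Cfsg.Agent.H874.Pw

open Cfsg.Agent.Cit.HexBase Cfsg.Agent.Cit.HexBase.HexGrp Cfsg.Agent.Lib.SL2Mat

theorem card_cent_hex {E : Type*} [Field E] [Finite E] {σ : E ≃+* E} {L : Type*} [Group L] [Finite L] (c : HexGrp σ L)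
    (h2 : (2 : E) ≠ 0) {t : L} (ht : t * t = 1) (ht1 : t ≠ 1) :
    Nat.card ↥(Subgroup.centralizer ({t} : Set L)) ≤ Nat.card (Matrix.SpecialLinearGroup (Fin 2) E) *
      Nat.card (Matrix.SpecialLinearGroup (Fin 2) ↥(fx σ)) * Nat.card (↥(fx σ))ˣ := by
  classical
  have h1 : IsConj c.z t := c.isConj_invol h2 c.z_sq (c.z_ne h2) ht ht1
  obtain ⟨a, ha⟩ := isConj_iff.1 h1
  rw [← Nat.card_prod, ← Nat.card_prod]
  refine Nat.card_le_card_of_surjective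
    (fun p : (Matrix.SpecialLinearGroup (Fin 2) E × Matrix.SpecialLinearGroup (Fin 2) ↥(fx σ)) × (↥(fx σ))ˣ =>
      if h : a * (c.pb p.1.1 * c.p4 p.1.2 * c.pa (dg (p.2 : ↥(fx σ)) p.2.ne_zero)) * a⁻¹ ∈
        Subgroup.centralizer ({t} : Set L) then
        (⟨a * (c.pb p.1.1 * c.p4 p.1.2 * c.pa (dg (p.2 : ↥(fx σ)) p.2.ne_zero)) * a⁻¹, h⟩ :
          ↥(Subgroup.centralizer ({t} : Set L))) else 1) ?_
  rintro ⟨g, hg⟩
  have h3 : g * t = t * g := Subgroup.mem_centralizer_singleton_iff.1 hg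
  have h4 : (a⁻¹ * g * a) * c.z = c.z * (a⁻¹ * g * a) := by
    have e : c.z = a⁻¹ * t * a := by rw [← ha]; group
    rw [e]
    calc a⁻¹ * g * a * (a⁻¹ * t * a) = a⁻¹ * (g * t) * a := by group
      _ = a⁻¹ * (t * g) * a := by rw [h3]
      _ = a⁻¹ * t * a * (a⁻¹ * g * a) := by group
  obtain ⟨x, y, u, hu, e⟩ := c.mem_CZ_form h2 h4
  refine ⟨((x, y), Units.mk0 u hu), ?_⟩
  have h5 : a * (c.pb x * c.p4 y * c.pa (dg u hu)) * a⁻¹ = g := by rw [← e]; group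
  have h6 : a * (c.pb x * c.p4 y * c.pa (dg u hu)) * a⁻¹ ∈ Subgroup.centralizer ({t} : Set L) := by rw [h5]; exact hg
  change (if h : a * (c.pb x * c.p4 y * c.pa (dg u hu)) * a⁻¹ ∈ Subgroup.centralizer ({t} : Set L) then
    (⟨_, h⟩ : ↥(Subgroup.centralizer ({t} : Set L))) else 1) = _
  rw [dif_pos h6]
  exact Subtype.ext h5

/-- `|C(t)| ≤ |SL₂(q³)| |SL₂(q)| (q - 1)` -/
theorem card_cent_inv {K : Type*} [Field K] [Fintype K] {q : ℕ} (hq : 1 < q) (hK : Fintype.card K = q ^ 3)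
    (h2 : (2 : K) ≠ 0) {t : ↥(Cfsg.Lie.twistedD4 K q)} (ht : orderOf t = 2) :
    Nat.card ↥(Subgroup.centralizer ({t} : Set ↥(Cfsg.Lie.twistedD4 K q))) ≤
      (q ^ 3 * ((q ^ 3) ^ 2 - 1)) * (q * (q ^ 2 - 1)) * (q - 1) := by
  obtain ⟨σ, hσ, ⟨c⟩⟩ := Cfsg.Agent.Cit.HexD4.exists_d4 hK
  have h1 : t * t = 1 := by rw [← pow_two, ← ht, pow_orderOf_eq_one]
  have h3 : t ≠ 1 := by
    rintro rfl
    rw [orderOf_one] at ht
    omega
  have hfx : Nat.card ↥(fx σ) = q :=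
    Cfsg.Agent.ChevalleyStructure.D4U.card_fix_field (φ := (σ : K →+* K)) hq hK hσ
  have h4 := card_cent_hex c h2 h1 h3
  have : Fintype ↥(fx σ) := Fintype.ofFinite _
  rw [Cfsg.Agent.ClassicalGeometry.PSL2Basic.card_SL2, Cfsg.Agent.ClassicalGeometry.PSL2Basic.card_SL2, Nat.card_units,
    hK, ← Nat.card_eq_fintype_card, hfx] at h4
  exact h4

/-- `q = 3` -/
theorem card_cent_inv_three {K : Type*} [Field K] [Fintype K] (hK : Fintype.card K = 3 ^ 3)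
    {t : ↥(Cfsg.Lie.twistedD4 K 3)} (ht : orderOf t = 2) :
    Nat.card ↥(Subgroup.centralizer ({t} : Set ↥(Cfsg.Lie.twistedD4 K 3))) ≤ 943488 := by
  have h2 : (2 : K) ≠ 0 := by
    intro h
    have h3 : CharP K 2 := CharTwo.of_one_ne_zero_of_two_eq_zero one_ne_zero h
    obtain ⟨n, -, hn⟩ := FiniteField.card K 2
    rw [hK] at hn
    have h4 : 2 ∣ 3 ^ 3 := by rw [hn]; exact dvd_pow_self 2 n.ne_zero
    omega
  exact (card_cent_inv (by norm_num) hK h2 ht).trans (by norm_num)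

end Cfsg.Agent.H874.Pw
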